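/-
Helper library (helper49): the pure p-group part of Bender-Glauberman 15.7 (case K ≠ 1): assembly.
Pieces: Q1 Q2 Q3 (helper49), Q4 (helper52), Q5 (helper95).
-/
import Cfsg.Agent.Lib.Helper49.P1.Q1
import Cfsg.Agent.Lib.Helper49.P1.Q2
import Cfsg.Agent.Lib.Helper52.P1Q4
import Cfsg.Agent.Lib.Helper95.P1Q5

set_option autoImplicit false
set_option linter.unusedSectionVars false
set_option linter.unusedVariables false

namespace Cfsg.Agent.Lib.Helper49.P1

open Subgroup Cfsg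

variable {G : Type*} [Group G] [Finite G] {p : ℕ} [Fact p.Prime]

/-- assembly -/
theorem pgroup_main (hp2 : p ≠ 2) {P K Z₀ : Subgroup G} (hP : IsPGroup p P)
    (hKP : K ≤ normalizer (P : Set G)) (hKc : IsMulCommutative K) (hKodd : Odd (Nat.card K))
    (hKp : (Nat.card K).Coprime p)
    (hZ₀ : Nat.card Z₀ = p) (hZ₀P : Z₀ ≤ P) (hZ₀c : Z₀ ≤ centralizer (P : Set G))
    (hfix : ∀ k ∈ K, k ≠ 1 → P ⊓ centralizer ({k} : Set G) = Z₀)
    (hPna : ¬ IsMulCommutative P)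
    {x : G} (hxP : x ∈ P) (hxo : x ^ p = 1)
    (hab : IsMulCommutative ↥(P ⊓ centralizer ({x} : Set G)))
    (hrk : ∀ A : Subgroup G, A ≤ P ⊓ centralizer ({x} : Set G) → IsElementaryAbelian p A →
      Nat.card A ≤ p ^ 2) :
    Nat.card K ∣ p - 1 ∨ (Nat.card P = p ^ 3 ∧ Nat.card K ∣ p + 1) := by
  have hpp : p.Prime := Fact.out
  by_cases hK1 : K = ⊥
  · left; rw [hK1]; simp
  obtain ⟨W, hW, hKW⟩ := exists_W hp2 hP hKP hK1 hKp hZ₀ hZ₀P hZ₀c hfix hPna
  have hKZ : K ≤ normalizer (Z₀ : Set G) := le_normalizer_of_fix hKc hKP hK1 hfix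
  have hfixW : ∀ k ∈ K, k ≠ 1 → W ⊓ centralizer ({k} : Set G) = Z₀ := by
    intro k hk hk1
    apply le_antisymm
    · rw [← hfix k hk hk1]; exact inf_le_inf_right _ hW.le
    · rw [← hfix k hk hk1]
      refine le_inf ?_ inf_le_right
      rw [hfix k hk hk1]; exact hW.lt.le
  rcases card_W hP hZ₀ hZ₀c hW hxP hxo hab hrk with h2 | ⟨h3, hxW, hWna⟩
  · left
    have h := card_dvd_sub hW.lt.le hKW hKZ (fun k hk hk1 => (hfixW k hk hk1).le)
    rw [h2, hZ₀] at h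
    have h' : p ^ 2 - p = p * (p - 1) := by
      rw [Nat.mul_sub, mul_one, sq]
    rw [h'] at h
    exact hKp.dvd_of_dvd_mul_left h
  · have hPW := Helper52.P1.eq_W hp2 hP hKP hK1 hKp hZ₀ hZ₀c hfix hW hKW h3 hWna hxW hab hrk
    rcases Helper95.P1.card_dvd_of_extraspecial hp2 hKc hKodd hKp hZ₀ hW.lt.le
      (hZ₀c.trans (centralizer_le (by exact_mod_cast hW.le))) hKW h3 hWna hW.pow
      (fun w hw y hy => hW.comm w hw y (hW.le hy)) hfixW with h | h
    · exact Or.inl h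
    · exact Or.inr ⟨by rw [hPW]; exact h3, h⟩

end Cfsg.Agent.Lib.Helper49.P1
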